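import Cfsg.Agent.SympSemiCount.Palindrome
import Cfsg.Agent.Forms.SympEmbed

/-!
A symplectic matrix with a prescribed palindromic characteristic polynomial.
-/

set_option autoImplicit false

namespace CfsgLib.SympSemiCount

open Polynomial

variable {F : Type*} [Field F]

/-- Every lift of a monic polynomial of degree `n` is the characteristic polynomial of a symplectic matrix. -/
theorem exists_symp_charpoly (n : ℕ) (c : Fin (n + 1) → F) (hc : c (Fin.last n) = 1) :
    ∃ g : Matrix.symplecticGroup (Fin n) F, g.1.charpoly = lift n c := by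
  classical
  rcases Nat.eq_zero_or_pos n with rfl | hn
  · refine ⟨1, ?_⟩
    have : c 0 = 1 := hc
    simp [lift, this, Matrix.charpoly, Matrix.det_isEmpty]
  obtain ⟨P, hP⟩ : ∃ P : F[X], P = ∑ i : Fin (n + 1), C (c i) * X ^ (i : ℕ) := ⟨_, rfl⟩
  have hPco : ∀ i : Fin (n + 1), P.coeff i = c i := fun i => by
    rw [hP, finsetSum_coeff]
    simp [coeff_C_mul, coeff_X_pow, Fin.val_inj]
  have hPd : P.natDegree = n := by
    refine le_antisymm ?_ (le_natDegree_of_ne_zero ?_)
    · rw [hP]
      exact natDegree_sum_le_of_forall_le _ _ fun i _ => (natDegree_C_mul_X_pow_le _ _).trans (Nat.le_of_lt_succ i.2)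
    · have := hPco (Fin.last n)
      rw [Fin.val_last, hc] at this
      rw [this]
      exact one_ne_zero
  have hPm : P.Monic := by
    have := hPco (Fin.last n)
    rw [Fin.val_last, hc] at this
    rw [Monic, leadingCoeff, hPd, this]
  haveI := hPm.finite_adjoinRoot
  haveI := hPm.free_adjoinRoot
  obtain ⟨pb, hpb⟩ : ∃ pb, pb = AdjoinRoot.powerBasis' hPm := ⟨_, rfl⟩
  have hdim : pb.dim = n := by rw [hpb, AdjoinRoot.powerBasis'_dim, hPd]
  let y : (AdjoinRoot P) := AdjoinRoot.root P
  have hgen : pb.gen = y := by rw [hpb, AdjoinRoot.powerBasis'_gen]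
  have hLn : Module.finrank F (AdjoinRoot P) = n := by rw [pb.finrank, hdim]
  let lam : (AdjoinRoot P) →ₗ[F] F := pb.basis.coord ⟨n - 1, by omega⟩
  have hlam : ∀ a : (AdjoinRoot P), (∀ b, lam (a * b) = 0) → a = 0 := by
    intro a ha
    by_contra ha0
    have hs : (Finset.univ.filter fun i => pb.basis.repr a i ≠ 0).Nonempty := by
      by_contra h
      refine ha0 (pb.basis.repr.map_eq_zero_iff.mp (Finsupp.ext fun i => ?_))
      by_contra hi
      exact h ⟨i, Finset.mem_filter.mpr ⟨Finset.mem_univ _, hi⟩⟩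
    obtain ⟨j, hj, hmax⟩ := Finset.exists_max_image _ id hs
    have hj' := (j.2.trans_eq hdim)
    refine (Finset.mem_filter.mp hj).2 ?_
    have h1 := ha (y ^ (n - 1 - (j : ℕ)))
    conv_lhs at h1 => rw [← pb.basis.sum_repr a, Finset.sum_mul, map_sum]
    rw [Finset.sum_eq_single j] at h1
    · rw [smul_mul_assoc, map_smul, pb.basis_eq_pow, hgen, ← pow_add, show (j : ℕ) + (n - 1 - (j : ℕ)) = n - 1 by omega,
        ← hgen, ← pb.basis_eq_pow ⟨n - 1, by omega⟩] at h1
      simp only [lam, Module.Basis.coord_apply, Module.Basis.repr_self, Finsupp.single_eq_same, smul_eq_mul, mul_one] at h1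
      exact h1
    · intro i _ hij
      by_cases hi : pb.basis.repr a i = 0
      · rw [hi, zero_smul, zero_mul, map_zero]
      · have hle : i ≤ j := hmax i (Finset.mem_filter.mpr ⟨Finset.mem_univ _, hi⟩)
        have hlt : (i : ℕ) < j := lt_of_le_of_ne hle fun e => hij (Fin.ext e)
        rw [smul_mul_assoc, map_smul, pb.basis_eq_pow, hgen, ← pow_add, ← hgen,
          ← pb.basis_eq_pow ⟨(i : ℕ) + (n - 1 - (j : ℕ)), by omega⟩]
        simp only [lam, Module.Basis.coord_apply, Module.Basis.repr_self, smul_eq_mul]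
        rw [Finsupp.single_eq_of_ne (by intro e; have := congrArg Fin.val e; simp at this; omega), mul_zero]
    · simp
  let B : LinearMap.BilinForm F ((AdjoinRoot P) × (AdjoinRoot P)) := LinearMap.mk₂ F (fun u v => lam (u.1 * v.2 - u.2 * v.1))
    (fun u u' v => by simp [add_mul, map_add, map_sub]; ring)
    (fun a u v => by simp [map_sub, mul_sub])
    (fun u v v' => by simp [mul_add, map_add, map_sub]; ring)
    (fun a u v => by simp [map_sub, mul_sub])
  have hB : ∀ u v, B u v = lam (u.1 * v.2 - u.2 * v.1) := fun u v => rfl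
  have hAlt : B.IsAlt := fun u => by rw [hB, mul_comm, sub_self, map_zero]
  have hSep : B.SeparatingLeft := fun u hu => Prod.ext
    (hlam _ fun b => by have := hu (0, b); simpa [hB] using this)
    (hlam _ fun b => by have := hu (b, 0); simpa [hB] using this)
  let M : Module.End F ((AdjoinRoot P) × (AdjoinRoot P)) := LinearMap.prod (-LinearMap.snd F (AdjoinRoot P) (AdjoinRoot P))
    (LinearMap.fst F (AdjoinRoot P) (AdjoinRoot P) + (LinearMap.mulLeft F y).comp (LinearMap.snd F (AdjoinRoot P) (AdjoinRoot P)))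
  have hM : ∀ u, M u = (-u.2, u.1 + y * u.2) := fun u => rfl
  let Y : Module.End F ((AdjoinRoot P) × (AdjoinRoot P)) := (LinearMap.mulLeft F y).prodMap (LinearMap.mulLeft F y)
  have hY : ∀ u, Y u = (y * u.1, y * u.2) := fun u => rfl
  have hYM : Commute Y M := LinearMap.ext fun u => by
    rw [Module.End.mul_apply, Module.End.mul_apply, hY, hM, hM, hY]
    refine Prod.ext ?_ ?_ <;> simp [mul_add]
  have hMM : M ^ 2 + 1 = Y * M := LinearMap.ext fun u => by
    rw [LinearMap.add_apply, pow_two, Module.End.mul_apply, Module.End.mul_apply, Module.End.one_apply, hM, hM, hY]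
    refine Prod.ext ?_ ?_ <;> simp [mul_add]
  have hann : aeval M (lift n c) = 0 := by
    rw [lift, map_sum]
    have h1 : ∀ i : Fin (n + 1), aeval M (C (c i) * (X ^ (n - (i : ℕ)) * (X ^ 2 + 1) ^ (i : ℕ))) =
        M ^ n * (c i • Y ^ (i : ℕ)) := fun i => by
      rw [map_mul, map_mul, map_pow, map_pow, map_add, map_pow, aeval_X, map_one, aeval_C, hMM, hYM.mul_pow,
        ← Algebra.smul_def, mul_smul_comm, (hYM.pow_pow _ _).eq, ← mul_assoc, ← pow_add,
        show n - (i : ℕ) + (i : ℕ) = n by omega]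
    have hYi : ∀ (i : ℕ) u, (Y ^ i) u = (y ^ i * u.1, y ^ i * u.2) := fun i => by
      induction i with
      | zero => intro u; simp
      | succ i ih => intro u; rw [pow_succ, Module.End.mul_apply, hY, ih]; simp [pow_succ, mul_assoc]
    have h2 : ∑ i : Fin (n + 1), c i • Y ^ (i : ℕ) = 0 := LinearMap.ext fun u => by
      have h3 : ∑ i : Fin (n + 1), c i • y ^ (i : ℕ) = 0 := by
        have h4 : aeval y P = 0 := by rw [AdjoinRoot.aeval_eq, AdjoinRoot.mk_self]
        have h5 : aeval y P = ∑ i : Fin (n + 1), c i • y ^ (i : ℕ) :=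
          (congrArg (aeval y) hP).trans (by simp [map_sum, Algebra.smul_def])
        exact h5.symm.trans h4
      rw [LinearMap.sum_apply, LinearMap.zero_apply]
      refine Prod.ext ?_ ?_
      · simp only [LinearMap.smul_apply, hYi, Prod.fst_sum, Prod.smul_fst, ← smul_mul_assoc, ← Finset.sum_mul, h3,
          zero_mul, Prod.fst_zero]
      · simp only [LinearMap.smul_apply, hYi, Prod.snd_sum, Prod.smul_snd, ← smul_mul_assoc, ← Finset.sum_mul, h3,
          zero_mul, Prod.snd_zero]
    rw [Finset.sum_congr rfl fun i _ => h1 i, ← Finset.mul_sum, h2, mul_zero]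
  haveI : Module.Finite F ((AdjoinRoot P) × (AdjoinRoot P)) := inferInstance
  have hinj : Function.Injective M := fun u v h => by
    rw [hM, hM, Prod.mk.injEq, neg_inj] at h
    refine Prod.ext ?_ h.1
    have := h.2
    rwa [h.1, add_left_inj] at this
  -- the vector `(1, 0)` is cyclic
  let d := (minpoly F M).natDegree
  let Φ : F[X] →ₗ[F] (AdjoinRoot P) × (AdjoinRoot P) := (LinearMap.applyₗ ((1, 0) : (AdjoinRoot P) × (AdjoinRoot P))).comp (aeval M).toLinearMap
  have hΦ : ∀ f, Φ f = aeval M f (1, 0) := fun f => rfl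
  have hRM : ∀ w ∈ LinearMap.range Φ, M w ∈ LinearMap.range Φ := by
    rintro w ⟨f, rfl⟩
    exact ⟨X * f, by rw [hΦ, hΦ, map_mul, aeval_X]; rfl⟩
  have hRY : ∀ w ∈ LinearMap.range Φ, Y w ∈ LinearMap.range Φ := by
    intro w hw
    let T : LinearMap.range Φ →ₗ[F] LinearMap.range Φ := M.restrict hRM
    obtain ⟨⟨w', hw'⟩, e⟩ := LinearMap.injective_iff_surjective.mp
      (show Function.Injective T from fun a b h => Subtype.ext (hinj (congrArg Subtype.val h))) ⟨w, hw⟩
    rw [← show M w' = w from congrArg Subtype.val e, ← Module.End.mul_apply, ← hMM, LinearMap.add_apply,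
      pow_two, Module.End.mul_apply]
    exact add_mem (hRM _ (hRM _ hw')) hw'
  have hR : LinearMap.range Φ = ⊤ := by
    have h0 : ((1, 0) : (AdjoinRoot P) × (AdjoinRoot P)) ∈ LinearMap.range Φ := ⟨1, by simp [hΦ]⟩
    have h1 : ((0, 1) : (AdjoinRoot P) × (AdjoinRoot P)) ∈ LinearMap.range Φ := by
      have := hRM _ h0
      rwa [hM, neg_zero, mul_zero, add_zero] at this
    have hp : ∀ i : ℕ, ((y ^ i, 0) : (AdjoinRoot P) × (AdjoinRoot P)) ∈ LinearMap.range Φ ∧ ((0, y ^ i) : (AdjoinRoot P) × (AdjoinRoot P)) ∈ LinearMap.range Φ := fun i => by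
      induction i with
      | zero => rw [pow_zero]; exact ⟨h0, h1⟩
      | succ i ih =>
        have e1 := hRY _ ih.1
        have e2 := hRY _ ih.2
        rw [hY, mul_zero, ← pow_succ'] at e1
        rw [hY, mul_zero, ← pow_succ'] at e2
        exact ⟨e1, e2⟩
    rw [eq_top_iff, ← (pb.basis.prod pb.basis).span_eq, Submodule.span_le]
    rintro - ⟨i | i, rfl⟩
    · simpa [hgen] using (hp i).1
    · simpa [hgen] using (hp i).2
  have hint : IsIntegral F M := Algebra.IsIntegral.isIntegral M
  have hd : 2 * n ≤ d := by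
    let Ψ : (Fin d → F) →ₗ[F] (AdjoinRoot P) × (AdjoinRoot P) := Fintype.linearCombination F fun i : Fin d => (M ^ (i : ℕ)) (1, 0)
    have hΨ : Function.Surjective Ψ := fun w => by
      obtain ⟨f, rfl⟩ := LinearMap.range_eq_top.mp hR w
      refine ⟨fun i => (f %ₘ minpoly F M).coeff i, ?_⟩
      rw [hΦ]
      conv_rhs => rw [← modByMonic_add_div f (minpoly F M)]
      rw [map_add, map_mul, minpoly.aeval, zero_mul, add_zero]
      by_cases hf0 : f %ₘ minpoly F M = 0
      · simp [hf0, Ψ, Fintype.linearCombination_apply]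
      rw [aeval_eq_sum_range' (n := d) (natDegree_lt_natDegree hf0 (degree_modByMonic_lt _ (minpoly.monic hint))),
        LinearMap.sum_apply, Fintype.linearCombination_apply, ← Fin.sum_univ_eq_sum_range]
      rfl
    have := LinearMap.finrank_le_finrank_of_injective (f := Ψ.dualMap) (LinearMap.dualMap_injective_of_surjective hΨ)
    rw [Subspace.dual_finrank_eq, Subspace.dual_finrank_eq, Module.finrank_fin_fun, Module.finrank_prod, hLn] at this
    omega
  have hlm : (lift n c).Monic := by
    have h1 := coeff_lift_last n c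
    rw [hc] at h1
    rw [Monic, leadingCoeff, le_antisymm (natDegree_lift_le n c) (le_natDegree_of_ne_zero (by rw [h1]; exact one_ne_zero)), h1]
  have hcp : LinearMap.charpoly M = lift n c := by
    have e1 : LinearMap.charpoly M = minpoly F M := (eq_of_monic_of_dvd_of_natDegree_le (minpoly.monic hint)
      (LinearMap.charpoly_monic M) (LinearMap.minpoly_dvd_charpoly M) (by
        rw [LinearMap.charpoly_natDegree, Module.finrank_prod, hLn]; omega))
    rw [e1]
    exact (eq_of_monic_of_dvd_of_natDegree_le (minpoly.monic hint) hlm (minpoly.dvd F M hann)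
      ((natDegree_lift_le n c).trans hd)).symm
  obtain ⟨g, hg⟩ := CfsgLib.Forms.exists_symp_coord (V := (AdjoinRoot P) × (AdjoinRoot P)) (n := n)
    (by rw [Module.finrank_prod, hLn]; ring) B hAlt hSep
  let G := LinearMap.toMatrix' (g.conj M)
  have hGv : ∀ v, G.mulVec v = g (M (g.symm v)) := fun v => LinearMap.toMatrix'_mulVec (g.conj M) v
  have hG : G ∈ Matrix.symplecticGroup (Fin n) F := CfsgLib.SpGeom.mem_of_form fun u v => by
    rw [hGv, hGv, hg]
    conv_rhs => rw [← g.apply_symm_apply u, ← g.apply_symm_apply v, hg]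
    rw [hB, hB, hM, hM]
    congr 1
    simp only
    ring
  refine ⟨⟨G, hG⟩, ?_⟩
  show G.charpoly = _
  rw [← hcp, ← LinearEquiv.charpoly_conj g M, ← LinearMap.charpoly_toMatrix (g.conj M) (Pi.basisFun F _),
    LinearMap.toMatrix_eq_toMatrix']

end CfsgLib.SympSemiCount
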