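import Mathlib

/-!
Palindromic polynomials of even degree as polynomials in `X + 1/X`.
-/

set_option autoImplicit false

namespace CfsgLib.SympSemiCount

open Polynomial

variable {F : Type*} [Field F]

/-- The polynomial `Σ cᵢ X^(n-i) (X²+1)^i`. -/
noncomputable def lift (n : ℕ) (c : Fin (n + 1) → F) : F[X] :=
  ∑ i : Fin (n + 1), C (c i) * (X ^ (n - (i : ℕ)) * (X ^ 2 + 1) ^ (i : ℕ))

theorem natDegree_sq_add_one : ((X : F[X]) ^ 2 + 1).natDegree = 2 := by
  rw [← C_1, natDegree_X_pow_add_C]

theorem monic_sq_add_one : ((X : F[X]) ^ 2 + 1).Monic := by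
  rw [← C_1]
  exact monic_X_pow_add_C 1 two_ne_zero

theorem reflect_sq_add_one_pow (i : ℕ) : reflect (2 * i) (((X : F[X]) ^ 2 + 1) ^ i) = (X ^ 2 + 1) ^ i := by
  induction i with
  | zero => simp [reflect_one]
  | succ i ih =>
    rw [pow_succ, Nat.mul_succ, reflect_mul _ _ (by rw [natDegree_pow, natDegree_sq_add_one]; omega)
      (by rw [natDegree_sq_add_one]), ih]
    congr 1
    rw [reflect_add, reflect_monomial, reflect_one, revAt_le le_rfl, Nat.sub_self, pow_zero]
    exact add_comm _ _

theorem term_spec (n i : ℕ) (hi : i ≤ n) :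
    ((X : F[X]) ^ (n - i) * (X ^ 2 + 1) ^ i).Monic ∧ ((X : F[X]) ^ (n - i) * (X ^ 2 + 1) ^ i).natDegree = n + i ∧
      reflect (2 * n) ((X : F[X]) ^ (n - i) * (X ^ 2 + 1) ^ i) = X ^ (n - i) * (X ^ 2 + 1) ^ i := by
  have hm : ((X : F[X]) ^ (n - i)).Monic := monic_X_pow _
  have hm2 : (((X : F[X]) ^ 2 + 1) ^ i).Monic := monic_sq_add_one.pow i
  refine ⟨hm.mul hm2, ?_, ?_⟩
  · rw [hm.natDegree_mul hm2, natDegree_X_pow, natDegree_pow, natDegree_sq_add_one]
    omega
  · rw [show 2 * n = 2 * (n - i) + 2 * i by omega, reflect_mul _ _ (by rw [natDegree_X_pow]; omega)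
      (by rw [natDegree_pow, natDegree_sq_add_one]; omega), reflect_sq_add_one_pow, reflect_monomial,
      revAt_le (by omega), show 2 * (n - i) - (n - i) = n - i by omega]

theorem natDegree_lift_le (n : ℕ) (c : Fin (n + 1) → F) : (lift n c).natDegree ≤ 2 * n :=
  natDegree_sum_le_of_forall_le _ _ fun i _ => le_trans (natDegree_C_mul_le _ _) (by
    rw [(term_spec n i (Nat.le_of_lt_succ i.2)).2.1]
    have := i.2
    omega)

theorem reflect_lift (n : ℕ) (c : Fin (n + 1) → F) : reflect (2 * n) (lift n c) = lift n c := by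
  rw [lift]
  induction (Finset.univ : Finset (Fin (n + 1))) using Finset.induction_on with
  | empty => simp
  | insert a s has ih =>
    rw [Finset.sum_insert has, reflect_add, ih, reflect_C_mul, (term_spec n a (Nat.le_of_lt_succ a.2)).2.2]

theorem coeff_lift_top (n : ℕ) (c : Fin (n + 1) → F) (j : Fin (n + 1)) (h : ∀ i, j < i → c i = 0) :
    (lift n c).coeff (n + j) = c j := by
  rw [lift, finsetSum_coeff, Finset.sum_eq_single j]
  · rw [coeff_C_mul]
    have e := (term_spec (F := F) n j (Nat.le_of_lt_succ j.2))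
    have h1 := e.1.coeff_natDegree
    rw [e.2.1] at h1
    rw [h1, mul_one]
  · intro i _ hij
    rcases lt_or_gt_of_ne hij with hlt | hgt
    · rw [coeff_C_mul, coeff_eq_zero_of_natDegree_lt, mul_zero]
      rw [(term_spec n i (Nat.le_of_lt_succ i.2)).2.1]
      exact Nat.add_lt_add_left hlt n
    · rw [h i hgt, C_0, zero_mul, coeff_zero]
  · simp

theorem coeff_lift_last (n : ℕ) (c : Fin (n + 1) → F) : (lift n c).coeff (2 * n) = c (Fin.last n) := by
  rw [← coeff_lift_top n c (Fin.last n) (fun i hi => absurd hi (Fin.le_last i).not_gt), Fin.val_last, two_mul]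

theorem lift_injective (n : ℕ) : Function.Injective (lift (F := F) n) := by
  classical
  intro c c' h
  by_contra hne
  have hs : (Finset.univ.filter fun i => c i ≠ c' i).Nonempty := by
    obtain ⟨i, hi⟩ := Function.ne_iff.mp hne
    exact ⟨i, Finset.mem_filter.mpr ⟨Finset.mem_univ _, hi⟩⟩
  obtain ⟨j, hj, hmax⟩ := Finset.exists_max_image _ id hs
  refine (Finset.mem_filter.mp hj).2 ?_
  have h1 : lift n (c - c') = 0 := by
    rw [lift]
    rw [lift, lift] at h
    simp only [Pi.sub_apply, map_sub, sub_mul, Finset.sum_sub_distrib, h, sub_self]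
  have h2 := coeff_lift_top n (c - c') j fun i hi => by
    by_contra hci
    exact absurd (hmax i (Finset.mem_filter.mpr ⟨Finset.mem_univ _, fun e => hci (by simp [e])⟩)) hi.not_ge
  rw [h1, coeff_zero] at h2
  exact sub_eq_zero.mp h2.symm

/-- Every palindromic polynomial is a lift. -/
theorem exists_lift_eq [Finite F] (n : ℕ) {f : F[X]} (hd : f.natDegree ≤ 2 * n) (hf : reflect (2 * n) f = f) :
    ∃ c, lift n c = f := by
  let P := {f : F[X] // f.natDegree ≤ 2 * n ∧ reflect (2 * n) f = f}
  let γ : P → Fin (n + 1) → F := fun f i => f.1.coeff (n + i)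
  have hγ : Function.Injective γ := by
    intro f g h
    have key : ∀ k, n ≤ k → f.1.coeff k = g.1.coeff k := fun k hk => by
      by_cases hk2 : k ≤ 2 * n
      · have := congrFun h ⟨k - n, by omega⟩
        simp only [γ, show n + (k - n) = k by omega] at this
        exact this
      · rw [coeff_eq_zero_of_natDegree_lt (by have := f.2.1; omega),
          coeff_eq_zero_of_natDegree_lt (by have := g.2.1; omega)]
    refine Subtype.ext (Polynomial.ext fun k => ?_)
    by_cases hk : n ≤ k
    · exact key k hk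
    · rw [← f.2.2, ← g.2.2, coeff_reflect, coeff_reflect, revAt_le (show k ≤ 2 * n by omega)]
      exact key _ (by omega)
  let ψ : (Fin (n + 1) → F) → P := fun c => ⟨lift n c, natDegree_lift_le n c, reflect_lift n c⟩
  have hψ : Function.Injective ψ := fun c c' h => lift_injective n (congrArg Subtype.val h)
  obtain ⟨c, hc⟩ := (Finite.injective_iff_surjective.mp (hγ.comp hψ)) (γ ⟨f, hd, hf⟩)
  exact ⟨c, congrArg Subtype.val (hγ (a₁ := ψ c) (a₂ := ⟨f, hd, hf⟩) hc)⟩

end CfsgLib.SympSemiCount
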